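import Cfsg.Prelude.Def_HallClasses
import Cfsg.Agent.Lib.Coprime.SchurZassenhaus
import Cfsg.Agent.Lib.Solvable.Hall
import Cfsg.Agent.Lib.FG85.Index
import Cfsg.Agent.S4309

/-!
# Extensions of `C_π`-groups

If `A ⊴ G` and both `A` and `G / A` have Hall `π`-subgroups, all conjugate, then so does `G`,
given the odd order theorem (used only for the conjugacy part of Schur-Zassenhaus).
-/

set_option autoImplicit false

namespace Cfsg.Agent.Lib.HallExt.Main

open Cfsg Pointwise

universe u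

/-- The odd order theorem in the universe `u`. -/
def FT : Prop := ∀ (X : Type u) [Group X] [Finite X], Odd (Nat.card X) → Group.IsSolvable X

section Ext

variable {M : Type u} [Group M] [Finite M]

theorem exists_ext (A₁ B : Subgroup M) [A₁.Normal] [B.Normal] (h : A₁ ≤ B)
    (hc : (A₁.relIndex B).Coprime B.index) :
    ∃ T : Subgroup M, A₁ ≤ T ∧ Nat.card T = Nat.card A₁ * B.index := by
  classical
  set π := QuotientGroup.mk' A₁ with hπ
  set Bb : Subgroup (M ⧸ A₁) := B.map π with hBb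
  have : Bb.Normal := Subgroup.Normal.map ‹_› π (QuotientGroup.mk'_surjective A₁)
  have hk : π.ker = A₁ := QuotientGroup.ker_mk' A₁
  have hBcard : Nat.card Bb = A₁.relIndex B := by
    have h1 := Subgroup.card_mul_index (A₁.subgroupOf B)
    have h2 : Nat.card (A₁.subgroupOf B) = Nat.card A₁ :=
      Nat.card_congr (Subgroup.subgroupOfEquivOfLe h).toEquiv
    have h3 := Cfsg.Agent.Lib.Coprime.SchurZassenhaus.card_map_mul_card_inf_ker π B
    have h4 : B ⊓ π.ker = A₁ := by rw [hk]; exact inf_eq_right.mpr h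
    rw [h4] at h3
    have hpos : 0 < Nat.card A₁ := Nat.card_pos
    apply Nat.eq_of_mul_eq_mul_right hpos
    rw [h3, Nat.mul_comm, Subgroup.relIndex, ← h1, h2]
  have hBidx : Bb.index = B.index := by
    rw [hBb, Subgroup.index_map]
    have : π.range = ⊤ := QuotientGroup.range_mk' A₁
    rw [this, Subgroup.index_top, Nat.mul_one, hk, sup_eq_left.mpr h]
  have hcop : (Nat.card Bb).Coprime Bb.index := by rw [hBcard, hBidx]; exact hc
  obtain ⟨H, hH⟩ := Subgroup.exists_right_complement'_of_coprime hcop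
  refine ⟨H.comap π, ?_, ?_⟩
  · intro x hx
    rw [Subgroup.mem_comap]
    have : π x = 1 := by
      rw [← MonoidHom.mem_ker, hk]; exact hx
    rw [this]; exact H.one_mem
  · have h5 : Nat.card H = Bb.index := by
      have := hH.symm.index_eq_card
      exact this.symm
    have h6 : Nat.card (H.comap π) = Nat.card H * Nat.card A₁ := by
      have h7 := Cfsg.Agent.Lib.Coprime.SchurZassenhaus.card_map_mul_card_inf_ker π (H.comap π)
      have h8 : (H.comap π).map π = H :=
        Subgroup.map_comap_eq_self_of_surjective (QuotientGroup.mk'_surjective A₁) H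
      have h9 : H.comap π ⊓ π.ker = A₁ := by
        rw [hk]
        apply inf_eq_right.mpr
        intro x hx
        rw [Subgroup.mem_comap]
        have : π x = 1 := by
          rw [← MonoidHom.mem_ker, hk]; exact hx
        rw [this]; exact H.one_mem
      rw [h8, h9] at h7
      exact h7.symm
    rw [h6, h5, hBidx, Nat.mul_comm]

theorem conj_ext (hFT : FT.{u}) (A₁ B : Subgroup M) [A₁.Normal] [B.Normal] (h : A₁ ≤ B)
    (hc : (A₁.relIndex B).Coprime B.index) (T T' : Subgroup M) (h1 : A₁ ≤ T) (h2 : A₁ ≤ T')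
    (hT : Nat.card T = Nat.card A₁ * B.index) (hT' : Nat.card T' = Nat.card A₁ * B.index) :
    ∃ g : M, MulAut.conj g • T = T' := by
  classical
  set π := QuotientGroup.mk' A₁ with hπ
  set Bb : Subgroup (M ⧸ A₁) := B.map π with hBb
  have : Bb.Normal := Subgroup.Normal.map ‹_› π (QuotientGroup.mk'_surjective A₁)
  have hk : π.ker = A₁ := QuotientGroup.ker_mk' A₁
  have hBcard : Nat.card Bb = A₁.relIndex B := by
    have h1 := Subgroup.card_mul_index (A₁.subgroupOf B)
    have h2 : Nat.card (A₁.subgroupOf B) = Nat.card A₁ :=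
      Nat.card_congr (Subgroup.subgroupOfEquivOfLe h).toEquiv
    have h3 := Cfsg.Agent.Lib.Coprime.SchurZassenhaus.card_map_mul_card_inf_ker π B
    have h4 : B ⊓ π.ker = A₁ := by rw [hk]; exact inf_eq_right.mpr h
    rw [h4] at h3
    have hpos : 0 < Nat.card A₁ := Nat.card_pos
    apply Nat.eq_of_mul_eq_mul_right hpos
    rw [h3, Nat.mul_comm, Subgroup.relIndex, ← h1, h2]
  have hBidx : Bb.index = B.index := by
    rw [hBb, Subgroup.index_map]
    have : π.range = ⊤ := QuotientGroup.range_mk' A₁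
    rw [this, Subgroup.index_top, Nat.mul_one, hk, sup_eq_left.mpr h]
  have hcard : ∀ S : Subgroup M, A₁ ≤ S → Nat.card S = Nat.card A₁ * B.index →
      Nat.card (S.map π) = B.index := by
    intro S hS hcS
    have h3 := Cfsg.Agent.Lib.Coprime.SchurZassenhaus.card_map_mul_card_inf_ker π S
    have h4 : S ⊓ π.ker = A₁ := by rw [hk]; exact inf_eq_right.mpr hS
    rw [h4, hcS, Nat.mul_comm] at h3
    exact Nat.eq_of_mul_eq_mul_left Nat.card_pos h3
  have hTb := hcard T h1 hT
  have hTb' := hcard T' h2 hT'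
  have hc' : (Nat.card Bb).Coprime (Nat.card (T.map π)) := by rw [hBcard, hTb]; exact hc
  have hprod : Nat.card Bb * Nat.card (T.map π) = Nat.card (M ⧸ A₁) := by
    rw [hTb, ← hBidx]; exact Subgroup.card_mul_index Bb
  have hsolv : Group.IsSolvable Bb ∨ Group.IsSolvable (T.map π) := by
    by_cases hodd : Odd (Nat.card Bb)
    · exact Or.inl (hFT _ hodd)
    · right
      apply hFT
      rw [← Nat.not_even_iff_odd] at hodd ⊢
      intro h5
      rw [not_not] at hodd
      exact Nat.not_coprime_of_dvd_of_dvd (by norm_num : 1 < 2) hodd.two_dvd h5.two_dvd hc'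
  obtain ⟨x, hx⟩ := Cfsg.Agent.Lib.Coprime.SchurZassenhaus.conj_of_card Bb (T.map π) (T'.map π) hsolv hprod
    (by rw [hTb, hTb']) hc'
  obtain ⟨g, rfl⟩ := QuotientGroup.mk'_surjective A₁ x
  refine ⟨g, ?_⟩
  have hcomap : ∀ S : Subgroup M, A₁ ≤ S → (S.map π).comap π = S := by
    intro S hS
    rw [Subgroup.comap_map_eq, hk, sup_eq_left.mpr hS]
  rw [← hcomap T' h2, ← hx]
  ext y
  simp only [Subgroup.mem_comap, Cfsg.Agent.Lib.Coprime.SchurZassenhaus.mem_conj_smul_iff]
  have e : (π g)⁻¹ * π y * π g = π (g⁻¹ * y * g) := by simp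
  rw [e, ← Subgroup.mem_comap, hcomap T h1]

end Ext


section Main

variable {G : Type u} [Group G] [Finite G] (π : Set ℕ)

theorem coprime_of_piFree {a b : ℕ} (ha : ∀ p : ℕ, p.Prime → p ∣ a → p ∈ π)
    (hb : ∀ p : ℕ, p.Prime → p ∈ π → ¬ p ∣ b) : b.Coprime a := by
  apply Nat.coprime_of_dvd
  intro p hp h1 h2
  exact hb p hp (ha p hp h2) h1

theorem isPiHall_map_aut {X : Type u} [Group X] [Finite X] (T : Subgroup X) (f : MulAut X)
    (hT : IsPiHall π T) : IsPiHall π (T.map f.toMonoidHom) := by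
  have hc : Nat.card (T.map f.toMonoidHom) = Nat.card T :=
    Nat.card_congr (T.equivMapOfInjective _ f.injective).symm.toEquiv
  have hi : (T.map f.toMonoidHom).index = T.index := by
    have h1 := Subgroup.card_mul_index (T.map f.toMonoidHom)
    have h2 := Subgroup.card_mul_index T
    rw [hc] at h1
    exact Nat.eq_of_mul_eq_mul_left Nat.card_pos (h1.trans h2.symm)
  exact ⟨fun p hp hd => hT.1 p hp (hc ▸ hd), fun p hp hpi hd => hT.2 p hp hpi (hi ▸ hd)⟩

theorem relIndex_dvd_of_le_mid {A₁ C A : Subgroup G} (h1 : A₁ ≤ C) (h2 : C ≤ A) :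
    A₁.relIndex C ∣ A₁.relIndex A :=
  ⟨_, (Subgroup.relIndex_mul_relIndex A₁ C A h1 h2).symm⟩

theorem relIndex_comap_mk (A : Subgroup G) [A.Normal] (Hb : Subgroup (G ⧸ A)) :
    A.relIndex (Hb.comap (QuotientGroup.mk' A)) = Nat.card Hb := by
  have h1 : A ≤ Hb.comap (QuotientGroup.mk' A) := by
    intro x hx
    rw [Subgroup.mem_comap]
    have : QuotientGroup.mk' A x = 1 := by
      rw [← MonoidHom.mem_ker, QuotientGroup.ker_mk']; exact hx
    rw [this]; exact Hb.one_mem
  have h7 := Cfsg.Agent.Lib.Coprime.SchurZassenhaus.card_map_mul_card_inf_ker (QuotientGroup.mk' A)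
    (Hb.comap (QuotientGroup.mk' A))
  have h8 : (Hb.comap (QuotientGroup.mk' A)).map (QuotientGroup.mk' A) = Hb :=
    Subgroup.map_comap_eq_self_of_surjective (QuotientGroup.mk'_surjective A) Hb
  have h9 : Hb.comap (QuotientGroup.mk' A) ⊓ (QuotientGroup.mk' A).ker = A := by
    rw [QuotientGroup.ker_mk']; exact inf_eq_right.mpr h1
  rw [h8, h9] at h7
  have h2 := Subgroup.card_mul_index (A.subgroupOf (Hb.comap (QuotientGroup.mk' A)))
  have h3 : Nat.card (A.subgroupOf (Hb.comap (QuotientGroup.mk' A))) = Nat.card A :=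
    Nat.card_congr (Subgroup.subgroupOfEquivOfLe h1).toEquiv
  rw [h3, ← h7, Nat.mul_comm] at h2
  exact Nat.eq_of_mul_eq_mul_right Nat.card_pos h2

/-- The ambient bookkeeping for the extension step: inside `N = N_G(A₁) ∩ K`. -/
theorem step_facts (A A₁ N : Subgroup G) [A.Normal] (h1 : A₁ ≤ A) (h2 : A₁ ≤ N)
    (hN : N ≤ Subgroup.normalizer (A₁ : Set G))
    (hA₁ : ∀ p : ℕ, p.Prime → p ∈ π → ¬ p ∣ A₁.relIndex A)
    (hidx : ∀ p : ℕ, p.Prime → p ∣ A.relIndex N → p ∈ π) :
    ((A₁.subgroupOf N).Normal) ∧ ((A.subgroupOf N).Normal) ∧ A₁.subgroupOf N ≤ A.subgroupOf N ∧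
      ((A₁.subgroupOf N).relIndex (A.subgroupOf N)).Coprime (A.subgroupOf N).index ∧
      Nat.card (A₁.subgroupOf N) = Nat.card A₁ := by
  have hn : (A₁.subgroupOf N).Normal := by
    rw [Subgroup.normal_subgroupOf_iff_le_normalizer h2]
    exact hN
  refine ⟨hn, inferInstance, (fun x hx => h1 hx), ?_,
    Nat.card_congr (Subgroup.subgroupOfEquivOfLe h2).toEquiv⟩
  have e : (A₁.subgroupOf N).relIndex (A.subgroupOf N) = A₁.relIndex (A ⊓ N) := by
    have e1 : A₁.subgroupOf N = A₁.comap N.subtype := rfl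
    have e2 : A.subgroupOf N = A.comap N.subtype := rfl
    rw [e1, e2, Subgroup.relIndex_comap, Subgroup.map_comap_eq, Subgroup.range_subtype, inf_comm]
  rw [e]
  apply Nat.Coprime.symm
  have : (A.subgroupOf N).index = A.relIndex N := rfl
  rw [this]
  apply Nat.Coprime.symm
  apply coprime_of_piFree π hidx
  intro p hp hpi hd
  exact hA₁ p hp hpi (hd.trans (relIndex_dvd_of_le_mid (le_inf h1 h2) inf_le_left))

theorem exists_hall (A : Subgroup G) [A.Normal] (hA : IsCPiGroup π ↥A) (hQ : IsEPiGroup π (G ⧸ A)) :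
    IsEPiGroup π G := by
  classical
  obtain ⟨Hb, hHb⟩ := hQ
  obtain ⟨⟨A₀, hA₀⟩, hconj⟩ := hA
  set A₁ : Subgroup G := A₀.map A.subtype with hA₁def
  have hA₁A : A₁ ≤ A := by
    rintro _ ⟨x, -, rfl⟩
    exact x.2
  set K : Subgroup G := Hb.comap (QuotientGroup.mk' A) with hK
  have hAK : A ≤ K := by
    intro x hx
    rw [hK, Subgroup.mem_comap]
    have : QuotientGroup.mk' A x = 1 := by
      rw [← MonoidHom.mem_ker, QuotientGroup.ker_mk']; exact hx
    rw [this]; exact Hb.one_mem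
  set N : Subgroup G := Subgroup.normalizer (A₁ : Set G) ⊓ K with hN
  have hA₁N : A₁ ≤ N := le_inf Subgroup.le_normalizer (hA₁A.trans hAK)
  -- Frattini
  have hFrat : ∀ k ∈ K, ∃ a ∈ A, ∃ n ∈ N, k = a * n := by
    intro k hk
    have h1 := isPiHall_map_aut π A₀ (MulAut.conjNormal k) hA₀
    obtain ⟨b, hb⟩ := hconj A₀ _ hA₀ h1
    refine ⟨b, b.2, (b : G)⁻¹ * k, Subgroup.mem_inf.mpr ⟨?_, K.mul_mem (K.inv_mem (hAK b.2)) hk⟩, by group⟩
    have key : ∀ x : G, x ∈ A₁ → k * x * k⁻¹ ∈ A₁.map (MulAut.conj (b : G)).toMonoidHom := by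
      rintro _ ⟨x, hx, rfl⟩
      have h2 : (MulAut.conjNormal k x) ∈ A₀.map (MulAut.conjNormal k).toMonoidHom :=
        Subgroup.mem_map_of_mem _ hx
      rw [hb] at h2
      obtain ⟨y, hy, hy2⟩ := h2
      refine ⟨(y : G), ⟨y, hy, rfl⟩, ?_⟩
      have h3 := congrArg (Subtype.val) hy2
      simpa [MulAut.conjNormal_apply] using h3
    have hcard : ∀ (g : G), Nat.card (A₁.map (MulAut.conj g).toMonoidHom) = Nat.card A₁ := fun g =>
      Nat.card_congr (A₁.equivMapOfInjective _ (MulAut.conj g).injective).symm.toEquiv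
    have hle : A₁.map (MulAut.conj ((b : G)⁻¹ * k)).toMonoidHom ≤ A₁ := by
      rintro _ ⟨x, hx, rfl⟩
      obtain ⟨z, hz, hz2⟩ := key x hx
      have : (MulAut.conj ((b : G)⁻¹ * k)).toMonoidHom x = z := by
        have hz3 : (b : G) * z * (b : G)⁻¹ = k * x * k⁻¹ := by simpa using hz2
        simp only [MulEquiv.coe_toMonoidHom, MulAut.conj_apply]
        calc (b : G)⁻¹ * k * x * ((b : G)⁻¹ * k)⁻¹ = (b : G)⁻¹ * (k * x * k⁻¹) * b := by group
          _ = (b : G)⁻¹ * ((b : G) * z * (b : G)⁻¹) * b := by rw [hz3]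
          _ = z := by group
      rw [this]; exact hz
    have heq : A₁.map (MulAut.conj ((b : G)⁻¹ * k)).toMonoidHom = A₁ :=
      Subgroup.eq_of_le_of_card_ge hle (by rw [hcard])
    exact Subgroup.mem_normalizer_iff_map_conj_eq.mpr heq
  -- index computation
  have hKle : K ≤ N ⊔ A := by
    intro k hk
    obtain ⟨a, ha, n, hn, rfl⟩ := hFrat k hk
    have : a * n = n * (n⁻¹ * a * n) := by group
    rw [this]
    exact Subgroup.mul_mem _ (Subgroup.mem_sup_left hn)
      (Subgroup.mem_sup_right (by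
        have := (inferInstance : A.Normal).conj_mem a ha n⁻¹
        simpa using this))
  have hsup : N ⊔ A = K := le_antisymm (sup_le inf_le_right hAK) hKle
  have hidxN : A.relIndex N = Nat.card Hb := by
    rw [← Subgroup.relIndex_sup_right N A, hsup, hK, relIndex_comap_mk]
  have hA₁rel : A₁.relIndex A = A₀.index := by
    have h1 : A₁.subgroupOf A = A₀ := by
      rw [hA₁def]
      exact Subgroup.comap_map_eq_self_of_injective A.subtype_injective A₀
    rw [Subgroup.relIndex, h1]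
  obtain ⟨hn1, hn2, hle, hcop, hcardA⟩ := step_facts π A A₁ N hA₁A hA₁N inf_le_left
    (fun p hp hpi hd => hA₀.2 p hp hpi (hA₁rel ▸ hd))
    (fun p hp hd => hHb.1 p hp (hidxN ▸ hd))
  obtain ⟨T, -, hT⟩ := exists_ext (A₁.subgroupOf N) (A.subgroupOf N) hle hcop
  refine ⟨T.map N.subtype, ?_, ?_⟩
  · have hc : Nat.card (T.map N.subtype) = Nat.card T :=
      Nat.card_congr (T.equivMapOfInjective _ N.subtype_injective).symm.toEquiv
    have hcA₁ : Nat.card A₁ = Nat.card A₀ :=
      Nat.card_congr (A₀.equivMapOfInjective _ A.subtype_injective).symm.toEquiv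
    intro p hp hd
    rw [hc, hT, hcardA, hcA₁] at hd
    have hidx' : (A.subgroupOf N).index = Nat.card Hb := hidxN
    rw [hidx'] at hd
    rcases (Nat.Prime.dvd_mul hp).mp hd with h | h
    · exact hA₀.1 p hp h
    · exact hHb.1 p hp h
  · have hc : Nat.card (T.map N.subtype) = Nat.card T :=
      Nat.card_congr (T.equivMapOfInjective _ N.subtype_injective).symm.toEquiv
    have hcA₁ : Nat.card A₁ = Nat.card A₀ :=
      Nat.card_congr (A₀.equivMapOfInjective _ A.subtype_injective).symm.toEquiv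
    have hidx' : (A.subgroupOf N).index = Nat.card Hb := hidxN
    have h1 : (T.map N.subtype).index = A₀.index * Hb.index := by
      have h2 := Subgroup.card_mul_index (T.map N.subtype)
      have h3 := Subgroup.card_mul_index A₀
      have h4 := Subgroup.card_mul_index Hb
      have h5 : Nat.card G = Nat.card A * Nat.card (G ⧸ A) := by
        rw [Nat.mul_comm]; exact Subgroup.card_eq_card_quotient_mul_card_subgroup A
      rw [hc, hT, hcardA, hcA₁, hidx'] at h2
      apply Nat.eq_of_mul_eq_mul_left (Nat.mul_pos (Nat.card_pos (α := A₀)) (Nat.card_pos (α := Hb)))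
      rw [h2, h5, ← h3, ← h4]
      ring
    intro p hp hpi hd
    rw [h1] at hd
    rcases (Nat.Prime.dvd_mul hp).mp hd with h | h
    · exact hA₀.2 p hp hpi h
    · exact hHb.2 p hp hpi h

theorem map_conj_map_conj (T : Subgroup G) (x y : G) :
    (T.map (MulAut.conj y).toMonoidHom).map (MulAut.conj x).toMonoidHom =
      T.map (MulAut.conj (x * y)).toMonoidHom := by
  rw [Subgroup.map_map]
  congr 1
  ext z
  simp [MulAut.conj_apply, mul_assoc]

theorem conj_of_same_data (hFT : FT.{u}) (A : Subgroup G) [A.Normal] (T T' : Subgroup G)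
    (hT' : IsPiHall π T') (hi : T ⊓ A = T' ⊓ A)
    (hm : T.map (QuotientGroup.mk' A) = T'.map (QuotientGroup.mk' A)) :
    ∃ g : G, T' = T.map (MulAut.conj g).toMonoidHom := by
  classical
  set A₁ : Subgroup G := T' ⊓ A with hA₁def
  set Hb : Subgroup (G ⧸ A) := T'.map (QuotientGroup.mk' A) with hHb
  set K : Subgroup G := Hb.comap (QuotientGroup.mk' A) with hK
  have hAK : A ≤ K := by
    intro x hx
    rw [hK, Subgroup.mem_comap]
    have : QuotientGroup.mk' A x = 1 := by
      rw [← MonoidHom.mem_ker, QuotientGroup.ker_mk']; exact hx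
    rw [this]; exact Hb.one_mem
  set N : Subgroup G := Subgroup.normalizer (A₁ : Set G) ⊓ K with hN
  have hA₁A : A₁ ≤ A := inf_le_right
  have hA₁N : A₁ ≤ N := le_inf Subgroup.le_normalizer (hA₁A.trans hAK)
  have hnorm : ∀ S : Subgroup G, S ⊓ A = A₁ → S ≤ Subgroup.normalizer (A₁ : Set G) := by
    intro S hS t ht
    rw [Subgroup.mem_normalizer_iff]
    intro x
    have hm' : ∀ y : G, y ∈ A₁ ↔ y ∈ S ∧ y ∈ A := by
      intro y; rw [← hS]; exact Subgroup.mem_inf
    constructor
    · intro hx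
      have hx' : x ∈ A₁ := hx
      rw [hm'] at hx'
      show t * x * t⁻¹ ∈ A₁
      rw [hm']
      exact ⟨S.mul_mem (S.mul_mem ht hx'.1) (S.inv_mem ht),
        (inferInstance : A.Normal).conj_mem x hx'.2 t⟩
    · intro hx
      have hx' : t * x * t⁻¹ ∈ A₁ := hx
      rw [hm'] at hx'
      show x ∈ A₁
      rw [hm']
      have e : x = t⁻¹ * (t * x * t⁻¹) * t := by group
      refine ⟨?_, ?_⟩
      · rw [e]; exact S.mul_mem (S.mul_mem (S.inv_mem ht) hx'.1) ht
      · have := (inferInstance : A.Normal).conj_mem _ hx'.2 t⁻¹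
        rw [inv_inv] at this
        rw [e]; exact this
  have hTK : ∀ S : Subgroup G, S.map (QuotientGroup.mk' A) = Hb → S ≤ K := by
    intro S hS x hx
    rw [hK, Subgroup.mem_comap, ← hS]
    exact Subgroup.mem_map_of_mem _ hx
  have hTN : T ≤ N := le_inf (hnorm T hi) (hTK T hm)
  have hT'N : T' ≤ N := le_inf (hnorm T' rfl) (hTK T' rfl)
  have hsup : N ⊔ A = K := by
    apply le_antisymm (sup_le inf_le_right hAK)
    intro k hk
    rw [hK, Subgroup.mem_comap] at hk
    obtain ⟨t, ht, hte⟩ := hk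
    have h0 : t⁻¹ * k ∈ A := by
      rw [← QuotientGroup.ker_mk' A, MonoidHom.mem_ker, map_mul, map_inv, hte]
      exact inv_mul_cancel _
    have e : k = t * (t⁻¹ * k) := by group
    rw [e]
    exact Subgroup.mul_mem _ (Subgroup.mem_sup_left (hT'N ht)) (Subgroup.mem_sup_right h0)
  have hidxN : A.relIndex N = Nat.card Hb := by
    rw [← Subgroup.relIndex_sup_right N A, hsup, hK, relIndex_comap_mk]
  obtain ⟨hH1, hH2⟩ := Cfsg.Agent.S4309.result π T' A hT'
  obtain ⟨hn1, hn2, hle, hcop, hcardA⟩ := step_facts π A A₁ N hA₁A hA₁N inf_le_left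
    (fun p hp hpi hd => hH1.2 p hp hpi hd)
    (fun p hp hd => hH2.1 p hp (hidxN ▸ hd))
  have hcardT : ∀ S : Subgroup G, S ⊓ A = A₁ → S.map (QuotientGroup.mk' A) = Hb →
      Nat.card S = Nat.card A₁ * Nat.card Hb := by
    intro S hS hS2
    have h3 := Cfsg.Agent.Lib.Coprime.SchurZassenhaus.card_map_mul_card_inf_ker
      (QuotientGroup.mk' A) S
    rw [QuotientGroup.ker_mk', hS, hS2] at h3
    rw [← h3, Nat.mul_comm]
  have hsubcard : ∀ S : Subgroup G, S ≤ N → S ⊓ A = A₁ → S.map (QuotientGroup.mk' A) = Hb →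
      Nat.card (S.subgroupOf N) = Nat.card (A₁.subgroupOf N) * (A.subgroupOf N).index := by
    intro S hSN hS hS2
    have h1 : Nat.card (S.subgroupOf N) = Nat.card S :=
      Nat.card_congr (Subgroup.subgroupOfEquivOfLe hSN).toEquiv
    have h2 : (A.subgroupOf N).index = Nat.card Hb := hidxN
    rw [h1, hcardA, h2, hcardT S hS hS2]
  obtain ⟨m, hm2⟩ := conj_ext hFT (A₁.subgroupOf N) (A.subgroupOf N) hle hcop
    (T.subgroupOf N) (T'.subgroupOf N)
    (fun x hx => by
      have hx' : (x : G) ∈ A₁ := hx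
      rw [← hi] at hx'
      exact hx'.1)
    (fun x hx => by
      have hx' : (x : G) ∈ A₁ := hx
      exact hx'.1)
    (hsubcard T hTN hi hm) (hsubcard T' hT'N rfl rfl)
  refine ⟨(m : G), ?_⟩
  symm
  apply Subgroup.eq_of_le_of_card_ge
  · rintro _ ⟨t, ht, rfl⟩
    have h1 : (⟨t, hTN ht⟩ : N) ∈ T.subgroupOf N := ht
    have h2 : MulAut.conj m • (⟨t, hTN ht⟩ : N) ∈ T'.subgroupOf N := by
      rw [← hm2]
      exact Subgroup.smul_mem_pointwise_smul _ _ _ h1
    have h3 : ((MulAut.conj m • (⟨t, hTN ht⟩ : N) : N) : G) ∈ T' := h2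
    simpa [MulAut.smul_def, MulAut.conj_apply] using h3
  · have hc : Nat.card (T.map (MulAut.conj (m : G)).toMonoidHom) = Nat.card T :=
      Nat.card_congr (T.equivMapOfInjective _ (MulAut.conj (m : G)).injective).symm.toEquiv
    rw [hc, hcardT T hi hm, hcardT T' rfl rfl]

theorem conj_hall (hFT : FT.{u}) (A : Subgroup G) [A.Normal] (hA : IsCPiGroup π ↥A)
    (hQ : IsCPiGroup π (G ⧸ A)) (H K : Subgroup G) (hH : IsPiHall π H) (hK : IsPiHall π K) :
    ∃ g : G, K = H.map (MulAut.conj g).toMonoidHom := by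
  classical
  have hmk : ∀ (S : Subgroup G) (g : G), (S.map (MulAut.conj g).toMonoidHom).map (QuotientGroup.mk' A)
      = (S.map (QuotientGroup.mk' A)).map (MulAut.conj (QuotientGroup.mk' A g)).toMonoidHom := by
    intro S g
    rw [Subgroup.map_map, Subgroup.map_map]
    congr 1
  obtain ⟨q, hq⟩ := hQ.2 _ _ (Cfsg.Agent.S4309.result π H A hH).2 (Cfsg.Agent.S4309.result π K A hK).2
  obtain ⟨g, rfl⟩ := QuotientGroup.mk'_surjective A q
  set T₁ : Subgroup G := H.map (MulAut.conj g).toMonoidHom with hT₁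
  have hT₁H : IsPiHall π T₁ := isPiHall_map_aut π H (MulAut.conj g) hH
  have hT₁m : T₁.map (QuotientGroup.mk' A) = K.map (QuotientGroup.mk' A) := by
    rw [hT₁, hmk, hq]
  obtain ⟨a, ha⟩ := hA.2 _ _ (Cfsg.Agent.S4309.result π T₁ A hT₁H).1
    (Cfsg.Agent.S4309.result π K A hK).1
  set T₂ : Subgroup G := T₁.map (MulAut.conj (a : G)).toMonoidHom with hT₂
  have hT₂m : T₂.map (QuotientGroup.mk' A) = K.map (QuotientGroup.mk' A) := by
    rw [hT₂, hmk]
    have h1 : QuotientGroup.mk' A (a : G) = 1 := by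
      rw [← MonoidHom.mem_ker, QuotientGroup.ker_mk']; exact a.2
    rw [h1, hT₁m]
    ext z
    simp
  have hT₂i : T₂ ⊓ A = K ⊓ A := by
    apply le_antisymm
    · rintro x ⟨⟨t, ht, rfl⟩, hx⟩
      have ht2 : t ∈ A := by
        have := (inferInstance : A.Normal).conj_mem _ hx (a : G)⁻¹
        simpa [MulAut.conj_apply, mul_assoc] using this
      have h1 : (⟨t, ht2⟩ : A) ∈ (T₁ ⊓ A).subgroupOf A := Subgroup.mem_inf.mpr ⟨ht, ht2⟩
      have h2 : (MulAut.conj a).toMonoidHom (⟨t, ht2⟩ : A) ∈ (K ⊓ A).subgroupOf A := by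
        rw [ha]
        exact Subgroup.mem_map_of_mem _ h1
      have h3 : ((MulAut.conj a).toMonoidHom (⟨t, ht2⟩ : A) : G) ∈ K ⊓ A := h2
      simpa [MulAut.conj_apply] using h3
    · intro x hx
      have h1 : (⟨x, hx.2⟩ : A) ∈ (K ⊓ A).subgroupOf A := hx
      rw [ha] at h1
      obtain ⟨y, hy, hy2⟩ := h1
      have hy' : (y : G) ∈ T₁ ⊓ A := hy
      have h3 : (a : G) * y * (a : G)⁻¹ = x := by
        have := congrArg Subtype.val hy2
        simpa [MulAut.conj_apply] using this
      refine Subgroup.mem_inf.mpr ⟨⟨y, hy'.1, ?_⟩, hx.2⟩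
      simpa [MulAut.conj_apply] using h3
  obtain ⟨m, hm⟩ := conj_of_same_data π hFT A T₂ K hK hT₂i hT₂m
  refine ⟨m * ((a : G) * g), ?_⟩
  rw [hm, hT₂, hT₁, map_conj_map_conj, map_conj_map_conj, mul_assoc]

theorem main (hFT : FT.{u}) (A : Subgroup G) [A.Normal] (hA : IsCPiGroup π ↥A)
    (hQ : IsCPiGroup π (G ⧸ A)) : IsCPiGroup π G :=
  ⟨exists_hall π A hA hQ.1, conj_hall π hFT A hA hQ⟩

end Main

end Cfsg.Agent.Lib.HallExt.Main
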